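import Cfsg.Agent.H198.FC.DefsB
import Cfsg.Agent.H602.FC.AutL
import Cfsg.Agent.Schreier.PSU

/-!
# S5764, B-AUTU (helper602): from `ThmB` to `Aut(PSU_n(q))`

`HU` : the subgroup of `Perm (End V) × Aut(PSU_n(q))`, `V = Fⁿ`, of the pairs (ring automorphism of `End V` commuting with
the adjoint, the induced automorphism of `PSU_n(q)`); both projections are injective, the second one is onto.
`stmtAutU : ThmB → StmtAutU`.
-/

set_option autoImplicit false
set_option linter.unusedSectionVars false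

namespace Cfsg.Agent.H602.FC

open Matrix Cfsg.Agent.H198.FC Cfsg.Agent.LieClassical.HermBasic Cfsg.Agent.LieClassical.HermSiegel
  Cfsg.Agent.ClassicalGeometry.PSUAutCount Cfsg.Agent.Schreier.PSU
open Cfsg.Agent.ClassicalGeometry.UnitAutBasic (pr pr_surjective)

section

variable {n : ℕ} {F : Type} [Field F] {q : ℕ}

/-- conjugation by an isometry commutes with the adjoint -/
theorem adj_cj {K : Type*} [Field K] {W : Type*} [AddCommGroup W] [Module K W] (b : Cl K W) {x : (R K W)ˣ}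
    (hx : b.Isom x) (X Y : R K W) : b.Adj X Y ↔ b.Adj (H198.FC.cj K W x X) (H198.FC.cj K W x Y) := by
  have e1 : ∀ v, (x : R K W) (((x⁻¹ : (R K W)ˣ) : R K W) v) = v := fun v => by
    rw [← Module.End.mul_apply, ← Units.val_mul, mul_inv_cancel, Units.val_one, Module.End.one_apply]
  have e2 : ∀ v, ((x⁻¹ : (R K W)ˣ) : R K W) ((x : R K W) v) = v := fun v => by
    rw [← Module.End.mul_apply, ← Units.val_mul, inv_mul_cancel, Units.val_one, Module.End.one_apply]
  constructor
  · intro h v w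
    rw [cj_apply, cj_apply]
    show b.B ((x : R K W) (X (((x⁻¹ : (R K W)ˣ) : R K W) v))) w = b.B v ((x : R K W) (Y (((x⁻¹ : (R K W)ˣ) : R K W) w)))
    conv_lhs => rw [← e1 w]
    conv_rhs => rw [← e1 v]
    rw [hx, hx, h]
  · intro h v w
    have h1 := h ((x : R K W) v) ((x : R K W) w)
    rw [cj_apply, cj_apply] at h1
    change b.B ((x : R K W) (X (((x⁻¹ : (R K W)ˣ) : R K W) ((x : R K W) v)))) ((x : R K W) w) =
      b.B ((x : R K W) v) ((x : R K W) (Y (((x⁻¹ : (R K W)ˣ) : R K W) ((x : R K W) w)))) at h1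
    rwa [e2, e2, hx, hx] at h1

/-- `fm σ` on vectors -/
theorem fm_apply (σ : F ≃+* F) (X : R F (V n F)) (v : V n F) :
    fm n F σ X (fun i => σ (v i)) = fun i => σ (X v i) := by
  obtain ⟨M, rfl⟩ := (E n F).surjective X
  rw [fm_E]
  show (M.map σ) *ᵥ (fun i => σ (v i)) = fun i => σ ((M *ᵥ v) i)
  funext i
  simp [Matrix.mulVec, dotProduct]

end

section Fin

variable {n : ℕ} {F : Type} [Field F] [Fintype F] {q : ℕ} (hF : Fintype.card F = q ^ 2)

variable (n) in
/-- the hermitian form -/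
noncomputable def hb : Cl F (V n F) where
  τ := conj hF
  B := hermForm n F q
  add_left := herm_add_left
  add_right := herm_add_right hF
  smul_left := herm_smul_left
  smul_right a v w := herm_smul_right a v w
  nondeg _ h := herm_nondeg hF h
  invol a := pow_q_pow_q hF a
  typ := Or.inl ⟨exists_not_fixed hF, fun v w => herm_swap hF v w⟩

theorem hb_isU : (hb n hF).IsU := ⟨exists_not_fixed hF, fun v w => herm_swap hF v w⟩

theorem gu_isom (A : Cfsg.GU n F q) : (hb n hF).Isom (U n F (A : GL (Fin n) F)) := fun v w => herm_gm A v w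

theorem cj_mem_RB (A : Cfsg.GU n F q) : H198.FC.cj F (V n F) (U n F (A : GL (Fin n) F)) ∈ RB (hb n hF) :=
  ⟨cj_mem_RP _, adj_cj _ (gu_isom hF A)⟩

theorem fm_mem_RB (σ : F ≃+* F) : fm n F σ ∈ RB (hb n hF) := by
  refine ⟨fm_mem σ, fun X Y => ?_⟩
  have es : ∀ v : V n F, (fun i => σ ((fun j => σ.symm (v j)) i)) = v := fun v => by
    funext i
    simp
  constructor
  · intro h v w
    show hermForm n F q (fm n F σ X v) w = hermForm n F q v (fm n F σ Y w)
    rw [← es v, ← es w, fm_apply, fm_apply, herm_map, herm_map]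
    congr 1
    exact h _ _
  · intro h v w
    have h1 : hermForm n F q (fm n F σ X fun i => σ (v i)) (fun i => σ (w i)) =
        hermForm n F q (fun i => σ (v i)) (fm n F σ Y fun i => σ (w i)) := h _ _
    rw [fm_apply, fm_apply, herm_map, herm_map] at h1
    exact σ.injective h1

variable (n F q) in
/-- the pairs -/
abbrev GGU := Equiv.Perm (R F (V n F)) × MulAut (Cfsg.PSU n F q)

variable (n F q) in
/-- conjugations -/
noncomputable def AU : Cfsg.GU n F q →* GGU n F q :=
  ((H198.FC.cj F (V n F)).comp ((U n F).comp (Subgroup.subtype _))).prod f₁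

variable (n F q) in
/-- field automorphisms -/
noncomputable def BU : (F ≃+* F) →* GGU n F q := (fm n F).prod f₂

omit [Fintype F] in
theorem BAU (σ : F ≃+* F) (g : Cfsg.GU n F q) : BU n F q σ * AU n F q g = AU n F q (mapGU σ g) * BU n F q σ := by
  refine Prod.ext (perm_ext fun M => ?_) ?_
  · change fm n F σ (H198.FC.cj F (V n F) (U n F (g : GL (Fin n) F)) (E n F M)) =
      H198.FC.cj F (V n F) (U n F ((mapGU σ g : Cfsg.GU n F q) : GL (Fin n) F)) (fm n F σ (E n F M))
    have e : ((mapGU σ g : Cfsg.GU n F q) : GL (Fin n) F) = H199.PslAut.mapGL σ (g : GL (Fin n) F) := rfl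
    rw [e, cj_U, fm_E, fm_E, cj_U, ← map_inv, H199.PslAut.coe_mapGL, H199.PslAut.coe_mapGL]
    congr 1
    change (((g : GL (Fin n) F) : Matrix (Fin n) (Fin n) F) * M *
      (((g : GL (Fin n) F)⁻¹ : GL (Fin n) F) : Matrix (Fin n) (Fin n) F)).map (σ : F →+* F) =
      ((g : GL (Fin n) F) : Matrix (Fin n) (Fin n) F).map (σ : F →+* F) * M.map (σ : F →+* F) *
        (((g : GL (Fin n) F)⁻¹ : GL (Fin n) F) : Matrix (Fin n) (Fin n) F).map (σ : F →+* F)
    rw [Matrix.map_mul, Matrix.map_mul]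
  · change f₂ σ * f₁ g = f₁ (mapGU σ g) * f₂ σ
    rw [← conj_field, inv_mul_cancel_right]

variable (n F q) in
/-- the group of the pairs -/
noncomputable def HU : Subgroup (GGU n F q) where
  carrier := {p | ∃ g σ, p = AU n F q g * BU n F q σ}
  one_mem' := ⟨1, 1, by rw [map_one, map_one, one_mul]⟩
  mul_mem' := by
    rintro _ _ ⟨g, σ, rfl⟩ ⟨h, τ, rfl⟩
    refine ⟨g * mapGU σ h, σ * τ, ?_⟩
    rw [map_mul, map_mul]
    calc AU n F q g * BU n F q σ * (AU n F q h * BU n F q τ) =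
        AU n F q g * (BU n F q σ * AU n F q h) * BU n F q τ := by simp only [mul_assoc]
      _ = _ := by rw [BAU]; simp only [mul_assoc]
  inv_mem' := by
    rintro _ ⟨g, σ, rfl⟩
    refine ⟨mapGU σ⁻¹ g⁻¹, σ⁻¹, ?_⟩
    rw [_root_.mul_inv_rev, ← map_inv, ← map_inv, BAU]

omit [Fintype F] in
theorem AU_mem (g : Cfsg.GU n F q) : AU n F q g ∈ HU n F q := ⟨g, 1, by rw [map_one, mul_one]⟩

include hF in
/-- the second projection is injective -/
theorem eq_one_of_sndU (hn : 3 ≤ n) {p : GGU n F q} (hp : p ∈ HU n F q) (h : p.2 = 1) : p = 1 := by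
  obtain ⟨g, σ, rfl⟩ := hp
  have h1 : toAut g σ = toAut (1 : Cfsg.GU n F q) 1 := by
    rw [toAut_eq, toAut_eq, map_one, map_one, one_mul]
    exact h
  obtain ⟨h2, c, hc, h3⟩ := eq_of_toAut_eq hF hn h1
  subst h2
  rw [map_one, mul_one] at h ⊢
  refine Prod.ext (perm_ext fun M => ?_) h
  change H198.FC.cj F (V n F) (U n F (g : GL (Fin n) F)) (E n F M) = E n F M
  rw [cj_U]
  congr 1
  have h4 : ((1 : Cfsg.GU n F q) : GL (Fin n) F) = 1 := rfl
  have h5 : (1 : Matrix (Fin n) (Fin n) F) = c • ((g : GL (Fin n) F) : Matrix (Fin n) (Fin n) F) := h3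
  have hc0 : c ≠ 0 := by
    rintro rfl
    rw [zero_mul] at hc
    exact zero_ne_one hc
  have h6 : ((g : GL (Fin n) F) : Matrix (Fin n) (Fin n) F) = c⁻¹ • (1 : Matrix (Fin n) (Fin n) F) := by
    rw [h5, smul_smul, inv_mul_cancel₀ hc0, one_smul]
  have h7 : ((g : GL (Fin n) F) : Matrix (Fin n) (Fin n) F) *
      (((g : GL (Fin n) F)⁻¹ : GL (Fin n) F) : Matrix (Fin n) (Fin n) F) = 1 := by
    rw [← Units.val_mul, mul_inv_cancel, Units.val_one]
  have h8 : ((g : GL (Fin n) F) : Matrix (Fin n) (Fin n) F) * M = M * ((g : GL (Fin n) F) : Matrix (Fin n) (Fin n) F) := by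
    rw [h6, Matrix.smul_mul, Matrix.mul_smul, Matrix.one_mul, Matrix.mul_one]
  rw [h8, Matrix.mul_assoc, h7, Matrix.mul_one]

omit [Fintype F] in
/-- the first projection is injective -/
theorem eq_one_of_fstU {p : GGU n F q} (hp : p ∈ HU n F q) (h : p.1 = 1) : p = 1 := by
  obtain ⟨g, σ, rfl⟩ := hp
  have h1 : ∀ X : R F (V n F), H198.FC.cj F (V n F) (U n F (g : GL (Fin n) F)) (fm n F σ X) = X :=
    fun X => DFunLike.congr_fun h X
  have h2 : ∀ M : Matrix (Fin n) (Fin n) F, gm g * M.map σ * gm g⁻¹ = M := by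
    intro M
    have h3 := h1 (E n F M)
    rw [fm_E, cj_U] at h3
    exact (E n F).injective h3
  refine Prod.ext h (MulEquiv.ext fun x => ?_)
  obtain ⟨s, rfl⟩ := pr_surjective x
  change f₁ g (f₂ σ (pr n F q s)) = pr n F q s
  change toAut g 1 (toAut 1 σ (pr n F q s)) = pr n F q s
  rw [toAut_pr', toAut_pr']
  congr 1
  apply ext_act
  intro x
  rw [act_semiConj_one', act_semiConj_field']
  have h4 := h2 (mat s)
  have h5 : (mat s).map σ *ᵥ (gm g⁻¹ *ᵥ x) = fun i => σ (act s (fun j => σ.symm ((gm g⁻¹ *ᵥ x) j)) i) := by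
    have h6 := fm_apply σ (E n F (mat s)) (fun j => σ.symm ((gm g⁻¹ *ᵥ x) j))
    rw [fm_E] at h6
    have h7 : (fun i => σ ((fun j => σ.symm ((gm g⁻¹ *ᵥ x) j)) i)) = gm g⁻¹ *ᵥ x := by
      funext i
      simp
    rw [h7] at h6
    exact h6
  rw [← h5, mulVec_mulVec, mulVec_mulVec, h4]
  rfl

include hF in
/-- the second projection is onto -/
theorem exists_pairU (hn : 3 ≤ n) (h32 : ¬ (n = 3 ∧ q = 2)) (α : MulAut (Cfsg.PSU n F q)) : ∃ p ∈ HU n F q, p.2 = α := by
  obtain ⟨g, σ, rfl⟩ := ClassicalGeometry.PSUAutMain.exists_toAut hF hn h32 α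
  exact ⟨AU n F q g * BU n F q σ, ⟨g, σ, rfl⟩, (toAut_eq g σ).symm⟩

theorem fst_memU {p : GGU n F q} (hp : p ∈ HU n F q) : p.1 ∈ RB (hb n hF) := by
  obtain ⟨g, σ, rfl⟩ := hp
  exact mul_mem (cj_mem_RB hF g) (fm_mem_RB hF σ)

end Fin

/-- **B-AUTU** -/
theorem stmtAutU (h : ThmB.{0, 0}) : StmtAutU := by
  intro F _ _ n q hF hn h32 S hS
  -- the pairs over `S`
  let T : Subgroup (GGU n F q) := HU n F q ⊓ S.comap (MonoidHom.snd _ _)
  have hT : Group.IsSolvable T := by
    let f : T →* S := ((MonoidHom.snd _ _).comp T.subtype).codRestrict S fun p => p.2.2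
    have hf : Function.Injective f := by
      rw [injective_iff_map_eq_one]
      intro p hp
      apply Subtype.ext
      exact eq_one_of_sndU hF hn p.2.1 (congrArg Subtype.val hp)
    exact Group.isSolvable_of_isSolvable_injective hf
  let S' : Subgroup (Equiv.Perm (R F (V n F))) := T.map (MonoidHom.fst _ _)
  have hS' : Group.IsSolvable S' :=
    Group.isSolvable_of_surjective (MonoidHom.subgroupMap_surjective (MonoidHom.fst _ _) T)
  have hfr : Module.finrank F (V n F) = n := by simp [V]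
  have hbig : (hb n hF).Big := by
    refine Or.inl ⟨hb_isU hF, by rw [hfr]; exact hn, fun h3 h4 => h32 ⟨by rw [← hfr]; exact h3, ?_⟩⟩
    rw [Nat.card_eq_fintype_card, hF] at h4
    have h5 : q ≤ 2 := by
      by_contra h6
      have : 3 * 3 ≤ q * q := Nat.mul_le_mul (by omega) (by omega)
      rw [sq] at h4
      omega
    interval_cases q <;> omega
  obtain ⟨x, hx, hxi, hfive⟩ := h F (V n F) (hb n hF) hbig S'
    (by
      rintro _ ⟨p, hp, rfl⟩
      exact fst_memU hF hp.1) hS'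
  -- matrices of the `x i`
  have hs : ∀ i, ∃ s : Cfsg.SU n F q, ∃ g : Cfsg.GU n F q, gm g = mat s ∧ U n F (g : GL (Fin n) F) = x i := by
    intro i
    have hdet : ((E n F).symm (x i : R F (V n F))).det = 1 := by
      have h1 := LinearMap.det_toMatrix' (x i : R F (V n F))
      rw [hx i] at h1
      exact h1
    have hap : ∀ v : V n F, ((E n F).symm (x i : R F (V n F))) *ᵥ v = (x i : R F (V n F)) v := fun v => by
      have h1 : E n F ((E n F).symm (x i : R F (V n F))) v = (x i : R F (V n F)) v := by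
        rw [(E n F).apply_symm_apply]
      exact h1
    have hiso : ∀ u v : V n F, hermForm n F q (((E n F).symm (x i : R F (V n F))) *ᵥ u)
        (((E n F).symm (x i : R F (V n F))) *ᵥ v) = hermForm n F q u v := fun u v => by
      rw [hap, hap]
      exact hxi i u v
    let s : Cfsg.SU n F q := mkSU _ hdet hiso
    refine ⟨s, ⟨((s : Matrix.SpecialLinearGroup (Fin n) F) : GL (Fin n) F), hiso⟩, rfl, ?_⟩
    apply Units.ext
    rw [coe_U]
    exact (E n F).apply_symm_apply _
  choose s g hgs hs using hs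
  refine ⟨fun i => pr n F q (s i), fun α hα hi => ?_⟩
  obtain ⟨p, hp, rfl⟩ := exists_pairU hF hn h32 α
  have hpT : p ∈ T := ⟨hp, hα⟩
  have h1 : p.1 = 1 := by
    refine hfive p.1 ⟨p, hpT, rfl⟩ fun i => ?_
    refine ⟨AU n F q (g i) * p * (AU n F q (g i))⁻¹,
      ⟨mul_mem (mul_mem (AU_mem _) hp) ((HU n F q).inv_mem (AU_mem _)), ?_⟩, ?_⟩
    · have h3 := hi i
      rw [← f₁_eq_conj (g i) (s i) (hgs i)] at h3
      exact h3
    · rw [← hs i]
      rfl
  rw [eq_one_of_fstU hp h1]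
  rfl

end Cfsg.Agent.H602.FC
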